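import Cfsg.Agent.H209.IF.Kill
import Cfsg.Agent.H809.IF.EngC
import Cfsg.Agent.H677.IF.Kill

/-!
# S5719, the group `J4`: the arithmetic of the maximal subgroups (helper820)

Abstract form: `T` is a simple group of order `|J4|`; an involution `u` is of class 2A if `|C(u)| = 21799895040` and of
class 2B if `|C(u)| = 1816657920`.

* `fx_ge` : `f(t) |t^T| ≥ n |S|` if `S` is a set of conjugates of `t` in `A`;
* `ncard_conj` : the number of `N`-conjugates of `a`;
* `case_z`, `case_V`, `case_D`, `case_X` : the four maximal 2-local subgroups; `case_ord` : small or bad orders.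
-/

set_option autoImplicit false
set_option linter.unusedSectionVars false

namespace Cfsg.Agent.H820.IFJ

open MulAction Subgroup Cfsg.Agent.H284 Cfsg.Agent.H209.Fxy Cfsg.Agent.H999.IFB Cfsg.Agent.H809.IFC

section general

variable {T : Type*} [Group T] [Finite T] {A : Subgroup T} {Γ : Subgroup (MulAut T)}

theorem card_inf_mul (A C : Subgroup T) : Nat.card (A ⊓ C : Subgroup T) * A.relIndex C = Nat.card C := by
  rw [← Subgroup.inf_relIndex_right A C, Subgroup.relIndex,
    ← Nat.card_congr (Subgroup.subgroupOfEquivOfLe (inf_le_right : A ⊓ C ≤ C)).toEquiv]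
  exact Subgroup.card_mul_index _

theorem card_inf_mul' (A C : Subgroup T) : Nat.card (A ⊓ C : Subgroup T) * C.relIndex A = Nat.card A := by
  rw [inf_comm]
  exact card_inf_mul C A

/-- the number of `N`-conjugates of `a` -/
theorem ncard_conj (N : Subgroup T) (a : T) :
    Set.ncard {v : T | ∃ n ∈ N, n * a * n⁻¹ = v} = (centralizer ({a} : Set T)).relIndex N := by
  let _ : MulAction N T := MulAction.compHom T ((MulAut.conj : T →* MulAut T).comp N.subtype)
  have h1 : ∀ (n : N) (x : T), n • x = (n : T) * x * (n : T)⁻¹ := fun n x => rfl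
  have h2 : {v : T | ∃ n ∈ N, n * a * n⁻¹ = v} = MulAction.orbit N a := by
    ext v
    constructor
    · rintro ⟨n, hn, rfl⟩
      exact ⟨⟨n, hn⟩, rfl⟩
    · rintro ⟨n, rfl⟩
      exact ⟨n, n.2, rfl⟩
  have h3 : (centralizer ({a} : Set T)).subgroupOf N = MulAction.stabilizer N a := by
    ext n
    rw [Subgroup.mem_subgroupOf, Subgroup.mem_centralizer_singleton_iff, MulAction.mem_stabilizer_iff, h1,
      mul_inv_eq_iff_eq_mul]
  rw [h2, Subgroup.relIndex, h3, MulAction.index_stabilizer]

theorem conj_ne [IsSimpleGroup T] (hna : ∃ a b : T, a * b ≠ b * a) : Function.Injective (MulAut.conj : T →* MulAut T) :=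
  Cfsg.Agent.H677.SE.conj_inj hna

/-- `f(t) |t^T| ≥ n |S|` -/
theorem fx_ge [IsSimpleGroup T] (h : IF A Γ) (hna : ∃ a b : T, a * b ≠ b * a) {t : T} (ht : t ∈ A) (h2 : orderOf t = 2)
    {S : Set T} (hSA : ∀ s ∈ S, s ∈ A) (hS : ∀ s ∈ S, IsConj t s) :
    A.index * S.ncard ≤ fx A (MulAut.conj t) * (centralizer ({t} : Set T)).index := by
  obtain ⟨-, h4, -⟩ := IF.E2' h hna ht h2
  rw [← h4, (IF.fix_formula' h ((h.conj t).2 ht))]
  apply Nat.mul_le_mul_left
  rw [← Set.ncard_image_of_injective S (conj_ne hna)]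
  apply Set.ncard_le_ncard
  · rintro _ ⟨s, hs, rfl⟩
    refine ⟨?_, (h.conj s).2 (hSA s hs)⟩
    obtain ⟨g, hg⟩ := isConj_iff.1 (hS s hs)
    refine ⟨g, ?_⟩
    rw [← hg, map_mul, map_mul, map_inv]
  · exact Set.toFinite _

theorem le_fx [IsSimpleGroup T] (h : IF A Γ) (hna : ∃ a b : T, a * b ≠ b * a) {t : T} (ht : t ∈ A) (h2 : orderOf t = 2) :
    A.relIndex (centralizer ({t} : Set T)) ≤ fx A (MulAut.conj t) := by
  refine (IF.E1 h ((h.conj t).2 ht) (by rw [orderOf_conj hna, h2]) ?_).1
  intro b hb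
  rw [Subgroup.mem_centralizer_singleton_iff] at hb
  rw [MulAut.conj_apply, ← hb, mul_inv_cancel_right]

end general

section jfour

variable {T : Type*} [Group T] [Finite T] [IsSimpleGroup T] {A : Subgroup T} {Γ : Subgroup (MulAut T)}

theorem idx_A (hT : Nat.card T = 86775571046077562880) {t : T}
    (hc : Nat.card (centralizer ({t} : Set T)) = 21799895040) : (centralizer ({t} : Set T)).index = 3980549947 := by
  have h := Subgroup.card_mul_index (centralizer ({t} : Set T))
  rw [hc, hT] at h
  omega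

theorem idx_B (hT : Nat.card T = 86775571046077562880) {t : T}
    (hc : Nat.card (centralizer ({t} : Set T)) = 1816657920) : (centralizer ({t} : Set T)).index = 47766599364 := by
  have h := Subgroup.card_mul_index (centralizer ({t} : Set T))
  rw [hc, hT] at h
  omega

/-- `f(2A) ≤ 83` -/
theorem fA_le (h : IF A Γ) (hna : ∃ a b : T, a * b ≠ b * a) (hT : Nat.card T = 86775571046077562880) {t : T}
    (ht : t ∈ A) (h2 : orderOf t = 2) (hc : Nat.card (centralizer ({t} : Set T)) = 21799895040) :
    fx A (MulAut.conj t) ≤ 83 := by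
  obtain ⟨-, -, h5, -⟩ := IF.E2' h hna ht h2
  rw [idx_A hT hc] at h5
  by_contra hcon
  have h6 : 84 ^ 5 ≤ fx A (MulAut.conj t) ^ 5 := Nat.pow_le_pow_left (by omega) 5
  omega

/-- `f(2B) ≤ 136` -/
theorem fB_le (h : IF A Γ) (hna : ∃ a b : T, a * b ≠ b * a) (hT : Nat.card T = 86775571046077562880) {t : T}
    (ht : t ∈ A) (h2 : orderOf t = 2) (hc : Nat.card (centralizer ({t} : Set T)) = 1816657920) :
    fx A (MulAut.conj t) ≤ 136 := by
  obtain ⟨-, -, h5, -⟩ := IF.E2' h hna ht h2
  rw [idx_B hT hc] at h5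
  by_contra hcon
  have h6 : 137 ^ 5 ≤ fx A (MulAut.conj t) ^ 5 := Nat.pow_le_pow_left (by omega) 5
  omega

/-- the count of 2A's -/
theorem count_A (h : IF A Γ) (hna : ∃ a b : T, a * b ≠ b * a) (hT : Nat.card T = 86775571046077562880) {t : T}
    (ht : t ∈ A) (h2 : orderOf t = 2) (hc : Nat.card (centralizer ({t} : Set T)) = 21799895040)
    {S : Set T} (hSA : ∀ s ∈ S, s ∈ A) (hS : ∀ s ∈ S, IsConj t s) : 21799895040 * S.ncard ≤ 83 * Nat.card A := by
  have h3 := fx_ge h hna ht h2 hSA hS
  have h4 := fA_le h hna hT ht h2 hc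
  rw [idx_A hT hc] at h3
  have h5 := Subgroup.card_mul_index A
  rw [hT] at h5
  have h6 : 0 < A.index := by have := h.big; omega
  have h7 : A.index * (21799895040 * S.ncard) ≤ A.index * (83 * Nat.card A) := by
    calc A.index * (21799895040 * S.ncard) = 21799895040 * (A.index * S.ncard) := by ring
      _ ≤ 21799895040 * (fx A (MulAut.conj t) * 3980549947) := Nat.mul_le_mul_left _ h3
      _ ≤ 21799895040 * (83 * 3980549947) := Nat.mul_le_mul_left _ (Nat.mul_le_mul_right _ h4)
      _ = 83 * (Nat.card A * A.index) := by rw [h5]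
      _ = A.index * (83 * Nat.card A) := by ring
  exact le_of_mul_le_mul_left h7 h6

/-- **`A = C(z)`** -/
theorem case_z (h : IF A Γ) (hna : ∃ a b : T, a * b ≠ b * a) (hT : Nat.card T = 86775571046077562880) {z : T}
    (hz : orderOf z = 2) (hc : Nat.card (centralizer ({z} : Set T)) = 21799895040)
    (hA : A = centralizer ({z} : Set T)) {S : Set T} (hSA : ∀ s ∈ S, s * z = z * s) (hS : ∀ s ∈ S, IsConj z s)
    (hn : 84 ≤ S.ncard) : False := by
  have h1 := count_A h hna hT (t := z) (by rw [hA, Subgroup.mem_centralizer_singleton_iff]) hz hc (S := S)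
    (fun s hs => by rw [hA, Subgroup.mem_centralizer_singleton_iff]; exact hSA s hs) hS
  rw [hA, hc] at h1
  omega

/-- **`A = N(D)`, `D` pure 2A of order 8** -/
theorem case_D (h : IF A Γ) (hna : ∃ a b : T, a * b ≠ b * a) (hT : Nat.card T = 86775571046077562880)
    (hA : Nat.card A = 660602880) {D : Subgroup T} (hD : D ≤ A) (hD8 : Nat.card D = 8) {z : T} (hzD : z ∈ D)
    (hz : orderOf z = 2) (hc : Nat.card (centralizer ({z} : Set T)) = 21799895040)
    (hpure : ∀ u ∈ D, u ≠ 1 → IsConj z u) : False := by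
  have h1 := count_A h hna hT (hD hzD) hz hc (S := {u : T | u ∈ D ∧ u ≠ 1}) (fun s hs => hD hs.1)
    (fun s hs => hpure s hs.1 hs.2)
  have h2 : {u : T | u ∈ D ∧ u ≠ 1} = (D : Set T) \ {1} := rfl
  have h3 : (D : Set T).ncard = 8 := hD8
  rw [h2, Set.ncard_sdiff_singleton_of_mem D.one_mem, h3, hA] at h1
  omega

/-- **`A = N(X)`, `|A : C_A(a)| = 155`** -/
theorem case_X (h : IF A Γ) (hna : ∃ a b : T, a * b ≠ b * a) (hT : Nat.card T = 86775571046077562880)
    (hA : Nat.card A = 10239344640) {a : T} (haA : a ∈ A) (ha : orderOf a = 2)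
    (hc : Nat.card (centralizer ({a} : Set T)) = 21799895040 ∨ Nat.card (centralizer ({a} : Set T)) = 1816657920)
    (hn : (centralizer ({a} : Set T)).relIndex A = 155) : False := by
  have h1 := card_inf_mul' A (centralizer ({a} : Set T))
  have h2 := card_inf_mul A (centralizer ({a} : Set T))
  rw [hn, hA] at h1
  have h3 : Nat.card (A ⊓ centralizer ({a} : Set T) : Subgroup T) = 66060288 := by omega
  rw [h3] at h2
  rcases hc with hc | hc
  · have h4 := le_fx h hna haA ha
    have h5 := fA_le h hna hT haA ha hc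
    omega
  · omega

/-- **`A = N(V)`** -/
theorem case_V (h : IF A Γ) (hna : ∃ a b : T, a * b ≠ b * a) (hT : Nat.card T = 86775571046077562880)
    {V : Subgroup T} (hAV : A = normalizer (V : Set T)) (hA : Nat.card A = 501397585920)
    (hcomm : ∀ x ∈ V, ∀ y ∈ V, x * y = y * x) (hsq : ∀ x ∈ V, x * x = 1) (hV : Nat.card V = 2 ^ 11)
    {z t : T} (hz : z ∈ V) (ht : t ∈ V) (hz1 : z ≠ 1) (ht1 : t ≠ 1) (hzt : ¬ IsConj z t)
    (hcz : Nat.card (centralizer ({z} : Set T)) = 21799895040)
    (hct : Nat.card (centralizer ({t} : Set T)) = 1816657920)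
    (hoz : Set.ncard {v : T | ∃ n ∈ normalizer (V : Set T), n * z * n⁻¹ = v} = 1771)
    (hot : Set.ncard {v : T | ∃ n ∈ normalizer (V : Set T), n * t * n⁻¹ = v} = 276)
    (hCt : centralizer ({t} : Set T) ≤ normalizer (V : Set T)) : False := by
  have hord : ∀ x ∈ V, x ≠ 1 → orderOf x = 2 := fun x hx hx1 =>
    orderOf_eq_prime (by rw [pow_two, hsq x hx]) hx1
  have hVA : V ≤ A := by rw [hAV]; exact Subgroup.le_normalizer
  set Oz : Set T := {v : T | ∃ n ∈ normalizer (V : Set T), n * z * n⁻¹ = v} with hOz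
  set Ot : Set T := {v : T | ∃ n ∈ normalizer (V : Set T), n * t * n⁻¹ = v} with hOt
  have hOzV : Oz ⊆ (V : Set T) \ {1} := by
    rintro _ ⟨n, hn, rfl⟩
    refine ⟨(Subgroup.mem_normalizer_iff.1 hn z).1 hz, ?_⟩
    intro h1
    apply hz1
    have h2 : n * z * n⁻¹ = 1 := h1
    calc z = n⁻¹ * (n * z * n⁻¹) * n := by group
      _ = 1 := by rw [h2]; group
  have hOtV : Ot ⊆ (V : Set T) \ {1} := by
    rintro _ ⟨n, hn, rfl⟩
    refine ⟨(Subgroup.mem_normalizer_iff.1 hn t).1 ht, ?_⟩
    intro h1
    apply ht1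
    have h2 : n * t * n⁻¹ = 1 := h1
    calc t = n⁻¹ * (n * t * n⁻¹) * n := by group
      _ = 1 := by rw [h2]; group
  have hdis : Disjoint Oz Ot := by
    rw [Set.disjoint_left]
    rintro v ⟨n, -, rfl⟩ ⟨m, -, hm⟩
    apply hzt
    rw [isConj_iff]
    refine ⟨m⁻¹ * n, ?_⟩
    calc m⁻¹ * n * z * (m⁻¹ * n)⁻¹ = m⁻¹ * (n * z * n⁻¹) * m := by group
      _ = m⁻¹ * (m * t * m⁻¹) * m := by rw [hm]
      _ = t := by group
  have hVn : ((V : Set T) \ {1}).ncard = 2047 := by
    have h3 : (V : Set T).ncard = 2 ^ 11 := hV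
    rw [Set.ncard_sdiff_singleton_of_mem V.one_mem, h3]
    norm_num
  have hun : Oz ∪ Ot = (V : Set T) \ {1} := by
    apply Set.eq_of_subset_of_ncard_le (Set.union_subset hOzV hOtV)
    rw [Set.ncard_union_eq hdis, hoz, hot, hVn]
  -- a pair `z', t z'`
  obtain ⟨w, hw, hw'⟩ : ∃ w ∈ Oz, t * w ∈ Oz := by
    by_contra hcon
    push Not at hcon
    have h1 : (fun w => t * w) '' Oz ⊆ Ot := by
      rintro _ ⟨w, hw, rfl⟩
      have h2 : t * w ∈ (V : Set T) \ {1} := by
        refine ⟨V.mul_mem ht (hOzV hw).1, ?_⟩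
        intro h3
        have h4 : w = t := by
          have h5 : t * w = 1 := h3
          calc w = t⁻¹ * (t * w) := by group
            _ = t⁻¹ := by rw [h5, mul_one]
            _ = t := inv_eq_of_mul_eq_one_right (hsq t ht)
        have h6 : t ∈ Ot := ⟨1, one_mem _, by group⟩
        rw [h4] at hw
        exact Set.disjoint_left.1 hdis hw h6
      rw [← hun] at h2
      rcases h2 with h2 | h2
      · exact absurd h2 (hcon w hw)
      · exact h2
    have h2 := Set.ncard_le_ncard h1 (Set.toFinite _)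
    rw [Set.ncard_image_of_injective _ (mul_right_injective t), hoz, hot] at h2
    omega
  -- the centralizers
  have hconj : ∀ v ∈ Oz, Nat.card (centralizer ({v} : Set T)) = 21799895040 ∧
      Nat.card (A ⊓ centralizer ({v} : Set T) : Subgroup T) = 283115520 := by
    rintro v hv
    have hv' := hv
    obtain ⟨n, hn, rfl⟩ := hv
    have h1 : centralizer ({n * z * n⁻¹} : Set T) = (centralizer ({z} : Set T)).map (MulAut.conj n).toMonoidHom := by
      ext x
      rw [Subgroup.mem_centralizer_singleton_iff]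
      constructor
      · intro hx
        refine ⟨n⁻¹ * x * n, ?_, ?_⟩
        · show n⁻¹ * x * n ∈ centralizer ({z} : Set T)
          rw [Subgroup.mem_centralizer_singleton_iff]
          calc n⁻¹ * x * n * z = n⁻¹ * (x * (n * z * n⁻¹)) * n := by group
            _ = n⁻¹ * (n * z * n⁻¹ * x) * n := by rw [hx]
            _ = z * (n⁻¹ * x * n) := by group
        · show n * (n⁻¹ * x * n) * n⁻¹ = x
          group
      · rintro ⟨y, hy, rfl⟩
        have hy' : y * z = z * y := Subgroup.mem_centralizer_singleton_iff.1 hy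
        show n * y * n⁻¹ * (n * z * n⁻¹) = n * z * n⁻¹ * (n * y * n⁻¹)
        calc n * y * n⁻¹ * (n * z * n⁻¹) = n * (y * z) * n⁻¹ := by group
          _ = n * (z * y) * n⁻¹ := by rw [hy']
          _ = _ := by group
    have h0 : Nat.card (centralizer ({n * z * n⁻¹} : Set T)) = 21799895040 := by
      rw [h1, Subgroup.card_map_of_injective (MulAut.conj n).injective, hcz]
    refine ⟨h0, ?_⟩
    have h2 : Set.ncard {v : T | ∃ m ∈ normalizer (V : Set T), m * (n * z * n⁻¹) * m⁻¹ = v} = 1771 := by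
      rw [← hoz]
      congr 1
      ext v
      constructor
      · rintro ⟨m, hm, rfl⟩
        exact ⟨m * n, mul_mem hm hn, by group⟩
      · rintro ⟨m, hm, rfl⟩
        exact ⟨m * n⁻¹, mul_mem hm (inv_mem hn), by group⟩
    rw [ncard_conj, ← hAV] at h2
    have h3 := card_inf_mul' A (centralizer ({n * z * n⁻¹} : Set T))
    rw [h2, hA] at h3
    omega
  obtain ⟨c1, c2⟩ := hconj w hw
  obtain ⟨c3, -⟩ := hconj _ hw'
  have hwA : w ∈ A := hVA (hOzV hw).1
  have htwA : t * w ∈ A := hVA (hOzV hw').1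
  have hw2 := hord w (hOzV hw).1 (hOzV hw).2
  have htw2 := hord (t * w) (hOzV hw').1 (hOzV hw').2
  -- `C(tw) ∩ C(w)` has order at most `2^19 * 45`
  have hle : centralizer ({t * w} : Set T) ⊓ centralizer ({w} : Set T) ≤
      centralizer ({t} : Set T) := by
    rintro x ⟨hx1, hx2⟩
    have hx1' : x * (t * w) = t * w * x := Subgroup.mem_centralizer_singleton_iff.1 hx1
    have hx2' : x * w = w * x := Subgroup.mem_centralizer_singleton_iff.1 hx2
    rw [Subgroup.mem_centralizer_singleton_iff]
    have h3 : x * t * w = t * x * w := by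
      calc x * t * w = x * (t * w) := by group
        _ = t * w * x := hx1'
        _ = t * (w * x) := by group
        _ = t * (x * w) := by rw [hx2']
        _ = t * x * w := by group
    exact mul_right_cancel h3
  have hd1 : Nat.card (centralizer ({t * w} : Set T) ⊓ centralizer ({w} : Set T) : Subgroup T) ∣ 1816657920 := by
    rw [← hct]
    exact Subgroup.card_dvd_of_le hle
  have hd2 : Nat.card (centralizer ({t * w} : Set T) ⊓ centralizer ({w} : Set T) : Subgroup T) ∣ 283115520 := by
    rw [← c2]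
    apply Subgroup.card_dvd_of_le
    refine le_inf (hle.trans ?_) inf_le_right
    rw [hAV]
    exact hCt
  have hd3 : Nat.card (centralizer ({t * w} : Set T) ⊓ centralizer ({w} : Set T) : Subgroup T) ∣ 23592960 := by
    have := Nat.dvd_gcd hd1 hd2
    have e : Nat.gcd 1816657920 283115520 = 23592960 := by norm_num
    rwa [e] at this
  have hd4 := Nat.le_of_dvd (by norm_num) hd3
  have hc1 := card_inf_mul (centralizer ({t * w} : Set T)) (centralizer ({w} : Set T))
  rw [c1] at hc1
  have hc2 : 924 ≤ (centralizer ({t * w} : Set T)).relIndex (centralizer ({w} : Set T)) := by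
    by_contra hcon
    have h3 : (centralizer ({t * w} : Set T)).relIndex (centralizer ({w} : Set T)) ≤ 923 := by omega
    have h4 := Nat.mul_le_mul hd4 h3
    rw [hc1] at h4
    omega
  -- the bound of E4
  have hne : t * w ≠ w := by
    intro h3
    exact ht1 (mul_eq_right.1 h3)
  have hcw : t * w * w = w * (t * w) := by
    rw [mul_assoc, hsq w (hOzV hw).1, mul_one, ← mul_assoc, hcomm w (hOzV hw).1 t ht, mul_assoc,
      hsq w (hOzV hw).1, mul_one]
  obtain ⟨-, -, h5, -⟩ := IF.E4 h hna htwA hwA htw2 hw2 hne hcw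
  rw [idx_A hT c3] at h5
  have h6 := le_fx h hna hwA hw2
  have h7 := card_inf_mul A (centralizer ({w} : Set T))
  rw [c1, c2] at h7
  have h8 : A.relIndex (centralizer ({w} : Set T)) = 77 := by omega
  rw [h8] at h6
  have h9 : 77 ^ 4 * 924 ≤ fx A (MulAut.conj w) ^ 4 *
      (centralizer ({t * w} : Set T)).relIndex (centralizer ({w} : Set T)) :=
    Nat.mul_le_mul (Nat.pow_le_pow_left h6 4) hc2
  omega

/-- **the orders** -/
theorem case_ord (h : IF A Γ) (hna : ∃ a b : T, a * b ≠ b * a) (hT : Nat.card T = 86775571046077562880)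
    {a : T} (haA : a ∈ A) (ha : orderOf a = 2)
    (hc : Nat.card (centralizer ({a} : Set T)) = 21799895040 ∨ Nat.card (centralizer ({a} : Set T)) = 1816657920)
    (hA : Nat.card A ≤ 13000000 ∨ Nat.card A = 141831360) : False := by
  have hidx := Subgroup.card_mul_index A
  rw [hT] at hidx
  obtain ⟨-, -, -, h5, -⟩ := IF.E2' h hna haA ha
  rcases hA with hA | hA
  · have h6 : 6674000000000 ≤ A.index := by
      by_contra hcon
      have h7 : Nat.card A * A.index ≤ 13000000 * 6674000000000 := Nat.mul_le_mul hA (by omega)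
      omega
    have h7 : 6674000000000 ^ 5 ≤ A.index ^ 5 := Nat.pow_le_pow_left h6 5
    rcases hc with hc | hc
    · rw [idx_A hT hc] at h5
      norm_num at h5 h7
      omega
    · rw [idx_B hT hc] at h5
      norm_num at h5 h7
      omega
  · rw [hA] at hidx
    have h6 : A.index = 611822174208 := by omega
    rcases hc with hc | hc
    · rw [idx_A hT hc, h6] at h5
      norm_num at h5
    · have h7 := le_fx h hna haA ha
      have h8 := fB_le h hna hT haA ha hc
      have h9 := card_inf_mul A (centralizer ({a} : Set T))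
      rw [hc] at h9
      have h10 : Nat.card (A ⊓ centralizer ({a} : Set T) : Subgroup T) ∣ 141831360 := by
        rw [← hA]; exact Subgroup.card_dvd_of_le inf_le_left
      have h11 : Nat.card (A ⊓ centralizer ({a} : Set T) : Subgroup T) ∣ 1816657920 := by
        rw [← hc]; exact Subgroup.card_dvd_of_le inf_le_right
      have h12 := Nat.dvd_gcd h10 h11
      have e : Nat.gcd 141831360 1816657920 = 31680 := by norm_num
      rw [e] at h12
      have h13 := Nat.le_of_dvd (by norm_num) h12
      have h14 := Nat.mul_le_mul h13 (h7.trans h8)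
      rw [h9] at h14
      omega

end jfour

end Cfsg.Agent.H820.IFJ
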